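import Mathlib
import Cfsg.Agent.H84.Wf.Red
import Cfsg.Agent.GenExc.LeviQs
import Cfsg.Agent.KFacts.RgdTI
import Cfsg.Agent.Mrg.KFacts.RgdPerf
import Cfsg.Agent.H897.T5Conn

/-!
# Levi subgroups of root group data with trivial torus

`R : RGD cs h p T n X`, simply laced, `T = 1`.

* `conn_of_par` : connectivity from a spanning tree;
* `qs_HL` : `HL f = ⟨X x : x ∈ ⟨J⟩⟩` is simple;
* `mem_HL_of_comm` : elements commuting with `X r` and `X (-r)`, `r` dominant, lie in `HL f`, `range f = orth r`;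
* `red_HL` : `Red p (HL f)`.
-/

set_option autoImplicit false
set_option linter.unusedSectionVars false

namespace Cfsg.Agent.H84.Wf.TwoB

open CoxeterSystem Cfsg.Agent.ChevalleyStructure.CoxeterGeom Cfsg.Agent.Tits.Roots Cfsg.Agent.Tits.Core
  Cfsg.Agent.Tits.RootComb Cfsg.Agent.Tits.Exchange Cfsg.Agent.Nodes.Reps Cfsg.Agent.Nodes.BNOf
  Cfsg.Agent.Nodes.StabComb Cfsg.Agent.Nodes.Bruhat Cfsg.Agent.Nodes.OppDec Cfsg.Agent.Nodes.LeviDec
  Cfsg.Agent.Nodes.NormX Cfsg.Agent.Nodes.Coroot Cfsg.Agent.KFacts.RgdPar Cfsg.Agent.KFacts.RgdSL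
  Cfsg.Agent.Nodes.RGDLib Cfsg.Agent.Nodes.SubComb Cfsg.Agent.Nodes.Sub
open Cfsg.Agent.GenExc (HL csL)
open Cfsg.Agent.H897.T5Conn (Par)
open Cfsg.Agent.H897.T5Lat (Frm bf)
open Cfsg.Agent.H897.T5Sub (Red Moves)
open scoped commutatorElement

/-! ### combinatorics -/

theorem exists_step {J : Type*} (P : J → Prop) (par : J → J) : ∀ (m : ℕ) (x : J), P x → ¬ P (par^[m] x) →
    ∃ y, P y ∧ ¬ P (par y)
  | 0, x, hx, hn => absurd hx hn
  | m + 1, x, hx, hn => by
    by_cases h : P (par x)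
    · rw [Function.iterate_succ_apply] at hn
      exact exists_step P par m (par x) h hn
    · exact ⟨x, hx, h⟩

theorem conn_of_par {J : Type*} [Fintype J] [DecidableEq J] {M : CoxeterMatrix J} {i0 : J} {par : J → J} {m : ℕ}
    (hP : Par M i0 par m) (S : Set J) (h1 : S.Nonempty) (h2 : S ≠ Set.univ) :
    ∃ a ∈ S, ∃ b, b ∉ S ∧ M a b ≠ 2 := by
  by_cases h0 : i0 ∈ S
  · obtain ⟨b, hb⟩ := (Set.ne_univ_iff_exists_notMem S).1 h2
    obtain ⟨y, hy, hy'⟩ := exists_step (fun x => x ∉ S) par m b hb (by rw [hP.2.2]; exact not_not.2 h0)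
    have hy'' : par y ∈ S := not_not.1 hy'
    have h3 : M y (par y) = 3 := by
      rcases hP.1 y with h3 | h3
      · subst h3; exact absurd h0 hy
      · exact h3
    refine ⟨par y, hy'', y, hy, ?_⟩
    rw [M.symmetric, h3]; norm_num
  · obtain ⟨a, ha⟩ := h1
    obtain ⟨y, hy, hy'⟩ := exists_step (fun x => x ∈ S) par m a ha (by rw [hP.2.2]; exact h0)
    have h3 : M y (par y) = 3 := by
      rcases hP.1 y with h3 | h3
      · subst h3; exact absurd hy h0
      · exact h3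
    refine ⟨y, hy, par y, hy', ?_⟩
    rw [h3]; norm_num

section Rgd

variable {I W Y : Type*} [Fintype I] [DecidableEq I] [Group W] [Group Y] {M : CoxeterMatrix I}
  {cs : CoxeterSystem M W} {A : I → I → ℤ} {h : IsCartan M A} {p : ℕ} {T : Subgroup Y} {n : I → Y}
  {X : (I → ℤ) → Subgroup Y} {J : Type*} [Fintype J] [DecidableEq J]

theorem sl_of_frm {B : LinearMap.BilinForm ℤ (I → ℤ)} (F : Frm cs h B) : SL cs h := by
  intro x y hx hy
  rw [← F.cpr x y hy, ← F.cpr y x hx, F.symm]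

theorem n_mem_HL [Finite W] (R : RGD cs h p T n X) (hT : T = ⊥) (f : J ↪ I) (j : J) : n (f j) ∈ HL cs h X f := by
  obtain ⟨u, hu, hu1⟩ := Cfsg.Agent.KFacts.RgdPerf.exists_ne R (isRoot_sr cs h (f j)).neg
  obtain ⟨a, ha, t, ht, b, hb, e⟩ := R.rk1 (f j) u hu hu1
  rw [hT, Subgroup.mem_bot] at ht
  have h1 := GenExc.X_le_HL (X := X) f (GenExc.sr_mem_LR (cs := cs) (h := h) f j)
  have h2 := GenExc.X_le_HL (X := X) f (GenExc.LR_neg f (GenExc.sr_mem_LR (cs := cs) (h := h) f j))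
  have h3 : n (f j) = a⁻¹ * u * b⁻¹ := by rw [e, ht]; group
  rw [h3]
  exact mul_mem (mul_mem (inv_mem (h1 ha)) (h2 hu)) (inv_mem (h1 hb))

/-- roots of a simply laced system without isolated nodes have neighbours -/
theorem exists_cpr_one [Finite W] (hnb : ∀ i : I, ∃ j : I, M i j = 3) {x : I → ℤ} (hx : IsRoot cs h x) :
    ∃ y, IsRoot cs h y ∧ cpr cs h y x = 1 := by
  obtain ⟨w, i, rfl⟩ := hx
  obtain ⟨j, hj⟩ := hnb i
  have hne : i ≠ j := by
    rintro rfl
    rw [M.diagonal] at hj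
    norm_num at hj
  have hA : A i j = -1 := by
    rcases h.rel i j hne with h1 | h1 | h1 | h1
    · omega
    · exact h1.2.1
    · omega
    · omega
  refine ⟨rep cs h w (-sr j), (isRoot_sr cs h j).neg.act w, ?_⟩
  rw [cpr_rep cs h w _ (isRoot_sr cs h i), cpr_neg_left _ (isRoot_sr cs h i), cpr_sr, sr, pairing_single, hA]
  norm_num

/-- **The Levi subgroup is simple** (`T = 1`). -/
theorem simple_HL [Finite Y] [Finite W] [Nonempty J] [Fact p.Prime] (R : RGD cs h p T n X) (hT : T = ⊥) (f : J ↪ I)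
    {j0 : J} {par : J → J} {m : ℕ} (hP : Par (leviMatrix f M) j0 par m)
    (h4 : ∀ i j, M i j ≠ 4) (h6 : ∀ i j, M i j ≠ 6) (hnb : ∀ i : J, ∃ j : J, M (f i) (f j) = 3) :
    commutator ↥(HL cs h X f) = ⊤ ∧ Subgroup.center ↥(HL cs h X f) = ⊥ ∧ Cfsg.IsQuasisimple ↥(HL cs h X f) := by
  have hWf : Finite (leviMatrix f M).Group := GenExc.finite_WL (cs := cs) (h := h) f
  have hTc : ∀ a ∈ T, ∀ b ∈ T, a * b = b * a := by
    intro a ha b hb
    rw [hT, Subgroup.mem_bot] at ha hb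
    rw [ha, hb]
  have hn := n_mem_HL R hT f
  have F := hP.frm (csL M f) (levi_isCartan f h) (fun i j => h4 _ _) (fun i j => h6 _ _)
  have hs := sl_of_frm F
  have R1 := rgd_levi R f (csL M f)
  have hperf : ∀ x ∈ GenExc.LR cs h f, X x ≤ ⁅HL cs h X f, HL cs h X f⁆ := by
    rintro x ⟨hx, hx0⟩
    have e1 := eq_iota_levi f hx0
    obtain ⟨c, hc⟩ : ∃ c : J → ℤ, c = fun j => x (f j) := ⟨_, rfl⟩
    rw [← hc] at e1
    have hcr : IsRoot (csL M f) (levi_isCartan f h) c := by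
      rw [GenExc.isRoot_iota (cs := cs) (h := h) f, ← e1]; exact hx
    obtain ⟨a, ha, hab⟩ := exists_cpr_one (cs := csL M f) (h := levi_isCartan f h) hnb hcr
    have hle : ∀ b, IsRoot (csL M f) (levi_isCartan f h) b →
        X (iota (fun j => sr (f j)) b) ≤ HL cs h X f := fun b hb =>
      GenExc.X_le_HL f (GenExc.iota_mem_LR (cs := cs) f hb)
    have hba : cpr (csL M f) (levi_isCartan f h) c a = 1 := by rw [hs c a hcr ha, hab]
    have hd := isRoot_sub hcr ha hba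
    have hc' : cpr (csL M f) (levi_isCartan f h) (c - a) a = -1 := by
      rw [sub_eq_add_neg, cpr_add _ _ _ _ ha, cpr_neg _ _ _ ha, hba, cpr_self _ _ ha]; norm_num
    have h3 := KFacts.RgdPerf.le_comm_of_comm R1 (hs.a2 hd ha hc') (hle _ hd) (hle a ha)
    rw [sub_add_cancel, ← e1] at h3
    exact h3
  have hconn : ∀ S : Set J, S.Nonempty → S ≠ Set.univ → ∃ a ∈ S, ∃ b, b ∉ S ∧ M (f a) (f b) ≠ 2 := fun S h1 h2 =>
    conn_of_par hP S h1 h2
  have hcom := GenExc.perfect_HL f hperf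
  refine ⟨hcom, ?_, GenExc.isQuasisimple_HL f R hn hconn hTc hperf⟩
  have h1 := GenExc.center_le_T (GenExc.rgd_HL f R hn) (GenExc.G1_HL_top f) hconn (GenExc.solvable_T f hTc) hcom
  rw [eq_bot_iff]
  refine h1.trans ?_
  intro x hx
  have hx' : (x : Y) ∈ T := Subgroup.mem_subgroupOf.1 hx
  rw [hT, Subgroup.mem_bot] at hx'
  rw [Subgroup.mem_bot]
  exact Subtype.ext hx'

/-- **The elements commuting with an opposite pair of long root groups.** -/
theorem mem_HL_of_comm [Finite W] (R : RGD cs h p T n X) (hT : T = ⊥) (hs : SL cs h) (f : J ↪ I) {r b : I → ℤ}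
    (hr : IsRoot cs h r) (hb : IsRoot cs h b) (hrb : cpr cs h r b = 1)
    (hd : Dom A r) (hf : ∀ k, pairing A k r = 0 → ∃ j, f j = k) {g : Y} (hg : g ∈ GG cs h T X)
    (h1 : ∀ u ∈ X r, g * u = u * g) (h2 : ∀ u ∈ X (-r), g * u = u * g) : g ∈ HL cs h X f := by
  have := Fintype.ofFinite W
  have L1 := KFacts.RgdTI.LR.of_SL R hs hr hb hrb
  have L2 := KFacts.RgdTI.LR.of_SL R hs hr.neg hb.neg (by
    rw [cpr_neg_left _ hb.neg, cpr_neg_right cs h _ hb, hrb]; norm_num)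
  have hnorm : ∀ {x : I → ℤ}, (∀ u ∈ X x, g * u = u * g) → g ∈ Subgroup.normalizer (X x : Set Y) := by
    intro x hx
    rw [Subgroup.mem_normalizer_iff]
    intro u
    constructor
    · intro hu
      rw [hx u hu, mul_inv_cancel_right]; exact hu
    · intro hu
      have h3 := hx _ hu
      have h4 : u = g * u * g⁻¹ := by
        have h5 : g * (g * u * g⁻¹) = g * u := by rw [h3]; group
        exact (mul_left_cancel h5).symm
      rw [h4]; exact hu
  have h3 : g ∈ PS T X (KFacts.RgdTI.Ge cs h r) := by rw [← L1.normalizer]; exact ⟨hnorm h1, hg⟩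
  have h4 : g ∈ PS T X (KFacts.RgdTI.Ge cs h (-r)) := by rw [← L2.normalizer]; exact ⟨hnorm h2, hg⟩
  have h5 := (KFacts.RgdPar.inter R [ell cs h hr, ell cs h hr.neg] hg (by
    intro φ hφ
    simp only [List.mem_cons, List.not_mem_nil, or_false] at hφ
    rcases hφ with rfl | rfl
    · exact h3
    · exact h4)).1
  unfold PS at h5
  rw [hT, bot_sup_eq] at h5
  refine (RGD.Sup_mono ?_) h5
  rintro x ⟨hx, hx'⟩
  have h6 : 0 ≤ cpr cs h x r := hx' _ (List.mem_cons_self)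
  have h7 : 0 ≤ cpr cs h x (-r) := hx' _ (List.mem_cons_of_mem _ List.mem_cons_self)
  rw [cpr_neg_right cs h _ hr] at h7
  have h8 : cpr cs h x r = 0 := by omega
  have h9 : form cs h r x = 0 := by
    rw [form_comm]
    exact (cpr_zero_iff cs h x hr).1 h8
  have h10 := (mem_RootsJ_iff hd hx).2 h9
  refine ⟨hx, fun k hk => h10.2 k fun hk' => ?_⟩
  obtain ⟨j, hj⟩ := hf k (mem_orth.1 hk')
  exact hk j hj

/-- **The reduction to the Levi subgroup.** -/
theorem red_HL [Finite W] (R : RGD cs h p T n X) (hT : T = ⊥) (hG : GG cs h T X = ⊤) (hs : SL cs h) (f : J ↪ I)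
    (hZ : Subgroup.center ↥(HL cs h X f) = ⊥) {r b : I → ℤ}
    (hr : IsRoot cs h r) (hb : IsRoot cs h b) (hrb : cpr cs h r b = 1)
    (hd : Dom A r) (hf : ∀ k, pairing A k r = 0 → ∃ j, f j = k) {i0 : I} {w : W} (hw : rep cs h w (sr i0) = r)
    {q : ℕ} (hq : q ≠ 1) (hred : ∀ c : MulAut Y, orderOf c = q → ∃ s g : Y, c = MulAut.conj s ∧
      (∀ u ∈ X (sr i0), (g * s * g⁻¹) * u = u * (g * s * g⁻¹)) ∧
      (∀ u ∈ X (-sr i0), (g * s * g⁻¹) * u = u * (g * s * g⁻¹))) : Red q (HL cs h X f) := by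
  intro c hc
  obtain ⟨s, g, rfl, h1, h2⟩ := hred c hc
  obtain ⟨k, hk⟩ := exists_rp cs R.nsys w
  obtain ⟨x, hx⟩ : ∃ x, x = k * (g * s * g⁻¹) * k⁻¹ := ⟨_, rfl⟩
  have hwi : rep cs h w⁻¹ r = sr i0 := by rw [← hw, rep_inv_apply]
  have key : ∀ {a a' : I → ℤ}, (∀ u ∈ X a', (g * s * g⁻¹) * u = u * (g * s * g⁻¹)) →
      IsRoot cs h a → rep cs h w⁻¹ a = a' → ∀ u ∈ X a, x * u = u * x := by
    intro a a' h0 ha haa u hu
    have h3 := R.conj_mem' hk ha hu
    rw [haa] at h3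
    have h4 := h0 _ h3
    calc x * u = k * ((g * s * g⁻¹) * (k⁻¹ * u * k)) * k⁻¹ := by rw [hx]; group
      _ = k * ((k⁻¹ * u * k) * (g * s * g⁻¹)) * k⁻¹ := by rw [h4]
      _ = u * x := by rw [hx]; group
  have hxH : x ∈ HL cs h X f := mem_HL_of_comm R hT hs f hr hb hrb hd hf (by rw [hG]; exact Subgroup.mem_top _)
    (key h1 hr hwi) (key h2 hr.neg (by rw [map_neg, hwi]))
  have e1 : MulAut.conj (k * g) * MulAut.conj s * (MulAut.conj (k * g))⁻¹ = MulAut.conj x := by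
    rw [← map_inv, ← map_mul, ← map_mul]
    congr 1
    rw [hx]; group
  refine ⟨MulAut.conj (k * g), ⟨_, rfl⟩, ?_⟩
  rw [e1]
  refine ⟨fun y => ?_, ?_⟩
  · rw [MulAut.conj_apply]
    constructor
    · intro hy
      have : y = x⁻¹ * (x * y * x⁻¹) * x := by group
      rw [this]
      exact mul_mem (mul_mem (inv_mem hxH) hy) hxH
    · intro hy
      exact mul_mem (mul_mem hxH hy) (inv_mem hxH)
  · by_contra hcon
    push Not at hcon
    have h3 : (⟨x, hxH⟩ : ↥(HL cs h X f)) ∈ Subgroup.center ↥(HL cs h X f) := by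
      rw [Subgroup.mem_center_iff]
      rintro ⟨y, hy⟩
      apply Subtype.ext
      have h4 := hcon y hy
      rw [MulAut.conj_apply] at h4
      show y * x = x * y
      calc y * x = (x * y * x⁻¹) * x := by rw [h4]
        _ = x * y := by group
    rw [hZ, Subgroup.mem_bot] at h3
    have h5 : x = 1 := congrArg Subtype.val h3
    have h6 : s = 1 := by
      have : s = (k * g)⁻¹ * x * (k * g) := by rw [hx]; group
      rw [this, h5]; group
    rw [h6, map_one, orderOf_one] at hc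
    exact hq hc.symm

end Rgd

/-- a quasisimple group is `QSG` -/
theorem qsg_of_quasisimple {L : Type*} [Group L] (hL : commutator L = ⊤)
    (hs : IsSimpleGroup (L ⧸ Subgroup.center L)) (hn : Nontrivial L) : QSG L := by
  refine ⟨hL, hn, fun N hN => ?_⟩
  obtain ⟨π, hπ⟩ : ∃ π : L →* L ⧸ Subgroup.center L, π = QuotientGroup.mk' _ := ⟨_, rfl⟩
  have hsurj : Function.Surjective π := by rw [hπ]; exact QuotientGroup.mk'_surjective _
  have hker : π.ker = Subgroup.center L := by rw [hπ]; exact QuotientGroup.ker_mk' _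
  have hNn : (N.map π).Normal := hN.map π hsurj
  rcases hs.eq_bot_or_eq_top_of_normal _ hNn with h | h
  · right
    rw [← hker]
    exact (Subgroup.map_eq_bot_iff N).1 h
  · left
    have h1 : N ⊔ Subgroup.center L = ⊤ := by
      rw [← hker, ← Subgroup.comap_map_eq, h, Subgroup.comap_top]
    rw [eq_top_iff, ← hL, _root_.commutator_def, Subgroup.commutator_le]
    intro a _ b _
    have ha : a ∈ N ⊔ Subgroup.center L := by rw [h1]; exact Subgroup.mem_top a
    have hb : b ∈ N ⊔ Subgroup.center L := by rw [h1]; exact Subgroup.mem_top b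
    rw [Subgroup.mem_sup_of_normal_left] at ha hb
    obtain ⟨n, hn, c, hc, rfl⟩ := ha
    obtain ⟨n', hn', c', hc', rfl⟩ := hb
    rw [Subgroup.mem_center_iff] at hc hc'
    have e : ⁅n * c, n' * c'⁆ = ⁅n, n'⁆ := by
      rw [commutatorElement_def, commutatorElement_def]
      calc n * c * (n' * c') * (n * c)⁻¹ * (n' * c')⁻¹ = n * (c * (n' * c' * c⁻¹)) * n⁻¹ * c'⁻¹ * n'⁻¹ := by
            group
        _ = n * ((n' * c' * c⁻¹) * c) * n⁻¹ * c'⁻¹ * n'⁻¹ := by rw [← hc (n' * c' * c⁻¹)]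
        _ = n * (n' * (c' * n⁻¹)) * c'⁻¹ * n'⁻¹ := by group
        _ = n * (n' * (n⁻¹ * c')) * c'⁻¹ * n'⁻¹ := by rw [← hc' n⁻¹]
        _ = n * n' * n⁻¹ * n'⁻¹ := by group
    rw [e, commutatorElement_def]
    exact mul_mem (mul_mem (mul_mem hn hn') (inv_mem hn)) (inv_mem hn')

end Cfsg.Agent.H84.Wf.TwoB
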